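import Mathlib

/-!
Scott's lemma for permutation representations: the genus inequality.
-/

set_option autoImplicit false

namespace CfsgLib.MathieuTriples

open Equiv

variable {Ω : Type*}

/-- The orbits of a permutation. -/
abbrev Cyc (x : Perm Ω) := Quotient (Perm.SameCycle.setoid x)

variable [Fintype Ω] [DecidableEq Ω]

/-- The permutation matrix as a linear map. -/
noncomputable def lin (x : Perm Ω) : (Ω → ℚ) →ₗ[ℚ] Ω → ℚ := LinearMap.funLeft ℚ ℚ x.symm

theorem lin_single (x : Perm Ω) (a : Ω) : lin x (Pi.single a 1) = Pi.single (x a) 1 := by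
  funext b
  simp only [lin, LinearMap.funLeft_apply, Pi.single_apply, Equiv.symm_apply_eq]

theorem lin_mul (x y : Perm Ω) (v : Ω → ℚ) : lin (x * y) v = lin x (lin y v) := by
  funext b
  rfl

theorem lin_one (v : Ω → ℚ) : lin (1 : Perm Ω) v = v := rfl

/-- The image of `1 - x`. -/
noncomputable def dif (x : Perm Ω) : (Ω → ℚ) →ₗ[ℚ] Ω → ℚ := LinearMap.id - lin x

theorem dif_apply (x : Perm Ω) (v : Ω → ℚ) : dif x v = v - lin x v := rfl

theorem finrank_dif_le (x : Perm Ω) :
    Module.finrank ℚ (LinearMap.range (dif x)) + Nat.card (Cyc x) ≤ Fintype.card Ω := by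
  classical
  let P : (Ω → ℚ) →ₗ[ℚ] Cyc x → ℚ :=
    (Pi.basisFun ℚ Ω).constr ℚ fun a => Pi.single (Quotient.mk _ a) 1
  have hP : ∀ a, P (Pi.single a 1) = Pi.single (Quotient.mk _ a) 1 := fun a => by
    have := (Pi.basisFun ℚ Ω).constr_basis ℚ (fun a => (Pi.single (Quotient.mk _ a) 1 : Cyc x → ℚ)) a
    rwa [Pi.basisFun_apply] at this
  have hsurj : LinearMap.range P = ⊤ := by
    rw [eq_top_iff, ← (Pi.basisFun ℚ (Cyc x)).span_eq, Submodule.span_le]
    rintro _ ⟨o, rfl⟩
    obtain ⟨a, rfl⟩ := Quotient.mk_surjective o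
    exact ⟨Pi.single a 1, by rw [hP, Pi.basisFun_apply]⟩
  have hle : LinearMap.range (dif x) ≤ LinearMap.ker P := by
    rw [LinearMap.range_le_ker_iff]
    refine (Pi.basisFun ℚ Ω).ext fun a => ?_
    rw [Pi.basisFun_apply, LinearMap.comp_apply, dif_apply, lin_single, map_sub, hP, hP, LinearMap.zero_apply,
      sub_eq_zero]
    congr 1
    exact Quotient.sound (Perm.sameCycle_apply_right.2 (Perm.SameCycle.refl x a))
  have h := P.finrank_range_add_finrank_ker
  rw [hsurj, finrank_top, Module.finrank_pi, Module.finrank_pi] at h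
  have := Submodule.finrank_mono hle
  rw [Nat.card_eq_fintype_card]
  omega

/-- Scott's inequality. -/
theorem genus_le (x y : Perm Ω) (a₀ : Ω) (htr : ∀ a, ∃ g ∈ Subgroup.closure ({x, y} : Set (Perm Ω)), g a₀ = a) :
    Nat.card (Cyc x) + Nat.card (Cyc y) + Nat.card (Cyc (x * y)⁻¹) ≤ Fintype.card Ω + 2 := by
  classical
  set z := (x * y)⁻¹ with hz
  let δ : (LinearMap.range (dif x) × LinearMap.range (dif y) × LinearMap.range (dif z)) →ₗ[ℚ] Ω → ℚ :=
    (LinearMap.range (dif x)).subtype.comp (LinearMap.fst ℚ _ _) +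
      (((lin x).comp (LinearMap.range (dif y)).subtype).comp ((LinearMap.fst ℚ _ _).comp (LinearMap.snd ℚ _ _)) +
        ((lin (x * y)).comp (LinearMap.range (dif z)).subtype).comp ((LinearMap.snd ℚ _ _).comp (LinearMap.snd ℚ _ _)))
  let β : (Ω → ℚ) →ₗ[ℚ] LinearMap.range (dif x) × LinearMap.range (dif y) × LinearMap.range (dif z) :=
    (dif x).rangeRestrict.prod ((dif y).rangeRestrict.prod (dif z).rangeRestrict)
  have hδ : ∀ a b c, δ (a, b, c) = (a : Ω → ℚ) + (lin x (b : Ω → ℚ) + lin (x * y) (c : Ω → ℚ)) := fun _ _ _ => rfl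
  have hβδ : LinearMap.range β ≤ LinearMap.ker δ := by
    rintro _ ⟨v, rfl⟩
    rw [LinearMap.mem_ker]
    show (v - lin x v) + (lin x (v - lin y v) + lin (x * y) (v - lin z v)) = 0
    rw [map_sub, map_sub, ← lin_mul, ← lin_mul, hz, mul_inv_cancel, lin_one]
    abel
  have hker : LinearMap.ker β ≤ Submodule.span ℚ {fun _ => (1 : ℚ)} := by
    intro v hv
    rw [LinearMap.mem_ker] at hv
    have hx : lin x v = v := (sub_eq_zero.1 (congrArg Subtype.val (congrArg Prod.fst hv))).symm
    have hy : lin y v = v :=
      (sub_eq_zero.1 (congrArg Subtype.val (congrArg Prod.fst (congrArg Prod.snd hv)))).symm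
    have hinv : ∀ g ∈ Subgroup.closure ({x, y} : Set (Perm Ω)), lin g v = v := by
      intro g hg
      induction hg using Subgroup.closure_induction with
      | mem g hg => rcases hg with rfl | rfl <;> assumption
      | one => exact lin_one v
      | mul g h _ _ ig ih => rw [lin_mul, ih, ig]
      | inv g _ ig =>
        conv_lhs => rw [← ig]
        rw [← lin_mul, inv_mul_cancel, lin_one]
    refine Submodule.mem_span_singleton.2 ⟨v a₀, funext fun a => ?_⟩
    obtain ⟨g, hg, rfl⟩ := htr a
    have := congrFun (hinv g hg) (g a₀)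
    simp only [lin, LinearMap.funLeft_apply, Equiv.symm_apply_apply] at this
    simpa using this
  have hrange : ∀ a, (Pi.single a 1 : Ω → ℚ) - Pi.single a₀ 1 ∈ LinearMap.range δ := by
    have hX : ∀ b, (Pi.single b 1 : Ω → ℚ) - Pi.single (x b) 1 ∈ LinearMap.range δ := fun b =>
      ⟨(⟨_, Pi.single b 1, rfl⟩, 0, 0), by rw [hδ]; simp [dif_apply, lin_single]⟩
    have hY : ∀ b, (Pi.single (x b) 1 : Ω → ℚ) - Pi.single (x (y b)) 1 ∈ LinearMap.range δ := fun b =>
      ⟨(0, ⟨_, Pi.single b 1, rfl⟩, 0), by rw [hδ]; simp [dif_apply, lin_single]⟩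
    have hgen : ∀ g ∈ Subgroup.closure ({x, y} : Set (Perm Ω)), ∀ b,
        (Pi.single (g b) 1 : Ω → ℚ) - Pi.single b 1 ∈ LinearMap.range δ := by
      intro g hg
      induction hg using Subgroup.closure_induction with
      | mem g hg =>
        intro b
        rcases hg with rfl | rfl
        · have := neg_mem (hX b)
          rwa [neg_sub] at this
        · have := neg_mem (add_mem (add_mem (hX b) (hY b)) (neg_mem (hX (g b))))
          convert this using 1
          abel
      | one => intro b; simp
      | mul g h _ _ ig ih =>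
        intro b
        have := add_mem (ig (h b)) (ih b)
        rwa [sub_add_sub_cancel] at this
      | inv g _ ig =>
        intro b
        have := neg_mem (ig (g⁻¹ b))
        rw [show g (g⁻¹ b) = b from g.apply_symm_apply b, neg_sub] at this
        exact this
    intro a
    obtain ⟨g, hg, rfl⟩ := htr a
    exact hgen g hg a₀
  have htop : (⊤ : Submodule ℚ (Ω → ℚ)) ≤ LinearMap.range δ ⊔ Submodule.span ℚ {Pi.single a₀ 1} := by
    rw [← (Pi.basisFun ℚ Ω).span_eq, Submodule.span_le]
    rintro _ ⟨a, rfl⟩
    rw [Pi.basisFun_apply, ← sub_add_cancel (Pi.single a 1 : Ω → ℚ) (Pi.single a₀ 1)]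
    exact Submodule.add_mem_sup (hrange a) (Submodule.mem_span_singleton_self _)
  have hs : ∀ w : Ω → ℚ, Module.finrank ℚ (Submodule.span ℚ {w}) ≤ 1 := fun w =>
    (finrank_span_le_card _).trans (by simp)
  have e1 := β.finrank_range_add_finrank_ker
  have e2 := δ.finrank_range_add_finrank_ker
  have e3 := (Submodule.finrank_mono hker).trans (hs _)
  have e4 := Submodule.finrank_mono hβδ
  have e5 := (Submodule.finrank_mono htop).trans (Submodule.finrank_add_le_finrank_add_finrank _ _)
  have e6 := hs (Pi.single a₀ 1)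
  have e7 := finrank_dif_le x
  have e8 := finrank_dif_le y
  have e9 := finrank_dif_le z
  rw [Module.finrank_pi] at e1
  rw [finrank_top, Module.finrank_pi] at e5
  rw [Module.finrank_prod, Module.finrank_prod] at e2
  omega

/-- The number of orbits of a permutation of prime order. -/
theorem le_card_cyc {x : Perm Ω} {p : ℕ} (hp : p.Prime) (hx : x ^ p = 1) :
    Fintype.card Ω + (p - 1) * (Finset.univ.filter fun a => x a = a).card ≤ p * Nat.card (Cyc x) := by
  classical
  let m : Ω → Cyc x := Quotient.mk _
  have hfib : ∀ o : Cyc x, (Finset.univ.filter fun a => m a = o).card +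
      (p - 1) * ((Finset.univ.filter fun a => m a = o).filter fun a => x a = a).card ≤ p := by
    intro o
    obtain ⟨a, rfl⟩ := Quotient.mk_surjective o
    have hsub : (Finset.univ.filter fun b => m b = Quotient.mk _ a) ⊆ (Finset.range p).image fun i => (x ^ i) a := by
      intro b hb
      obtain ⟨i, hi, rfl⟩ := ((Quotient.exact (Finset.mem_filter.1 hb).2).symm).exists_pow_eq'
      exact Finset.mem_image.2 ⟨i, Finset.mem_range.2 (hi.trans_le (Nat.le_of_dvd hp.pos
        (orderOf_dvd_of_pow_eq_one hx))), rfl⟩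
    by_cases hc : ((Finset.univ.filter fun b => m b = Quotient.mk _ a).filter fun b => x b = b).card = 0
    · rw [hc, mul_zero, add_zero]
      exact (Finset.card_le_card hsub).trans ((Finset.card_image_le).trans (Finset.card_range p).le)
    · obtain ⟨b, hb⟩ := Finset.card_pos.1 (Nat.pos_of_ne_zero hc)
      simp only [Finset.mem_filter, Finset.mem_univ, true_and] at hb
      have hone : (Finset.univ.filter fun c => m c = Quotient.mk _ a) = {b} := by
        ext c
        simp only [Finset.mem_filter, Finset.mem_univ, true_and, Finset.mem_singleton]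
        refine ⟨fun hc => ?_, fun h => h ▸ hb.1⟩
        have hbc : x.SameCycle b c := Quotient.exact (hb.1.trans hc.symm)
        exact (hbc.eq_of_left hb.2).symm
      rw [hone, Finset.filter_singleton, if_pos hb.2, Finset.card_singleton]
      have := hp.pos
      omega
  calc Fintype.card Ω + (p - 1) * (Finset.univ.filter fun a => x a = a).card
      = ∑ o : Cyc x, ((Finset.univ.filter fun a => m a = o).card +
          (p - 1) * ((Finset.univ.filter fun a => m a = o).filter fun a => x a = a).card) := by
        rw [Finset.sum_add_distrib, ← Finset.mul_sum, Finset.card_eq_sum_card_fiberwise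
          (f := m) (s := Finset.univ.filter fun a => x a = a) (t := Finset.univ) (fun _ _ => Finset.mem_univ _),
          ← Finset.card_univ, Finset.card_eq_sum_card_fiberwise (f := m) (s := (Finset.univ : Finset Ω))
            (t := Finset.univ) (fun _ _ => Finset.mem_univ _)]
        simp only [Finset.filter_filter, and_comm]
    _ ≤ ∑ _o : Cyc x, p := Finset.sum_le_sum fun o _ => hfib o
    _ = p * Nat.card (Cyc x) := by
        rw [Finset.sum_const, Finset.card_univ, Nat.card_eq_fintype_card, smul_eq_mul, mul_comm]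

end CfsgLib.MathieuTriples
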