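import Cfsg.Agent.MathieuTriples.Genus
import Cfsg.Agent.MathieuTriples.Data
import Cfsg.Agent.MathieuOut.Data23
import Cfsg.Agent.MathieuOut.Cards
import Cfsg.Agent.Golay.Invol
import Cfsg.Agent.Golay.Ord3

/-!
Generation of M23 by triples of elements of prime order.
-/

set_option autoImplicit false
set_option maxRecDepth 10000

namespace CfsgLib.MathieuTriples

open Cfsg CfsgLib.Golay CfsgLib.MathieuTwo CfsgLib.MathieuOut Equiv

/-- Letters of a packed word. -/
def unb : ℕ → ℕ → List Bool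
  | 0, _ => []
  | k + 1, m => if m ≤ 1 then [] else Nat.beq (m % 2) 1 :: unb k (m / 2)

/-- The table has the prime order. -/
def ordOk (t : List ℕ) (n : ℕ) : Bool := eqTab (powT t n) idT && !(eqTab t idT)

/-- Check of a witness. -/
def Wit.ok (W : Wit) : Bool :=
  Golay.gensOk [dec W.x, dec W.y] D23.cert.fixd && ordOk (dec W.x) W.p && ordOk (dec W.y) W.q &&
    ordOk (mulTab (dec W.x) (dec W.y)) W.r && eqTab (evalW (dec W.x) (dec W.y) (unb 64 W.wa)) D23.cert.a &&
    eqTab (evalW (dec W.x) (dec W.y) (unb 64 W.wb)) D23.cert.b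

theorem wits_ok : wits.all Wit.ok = true := by decide +kernel

/-- The primes dividing the order. -/
def primeList : List ℕ := [2, 3, 5, 7, 11, 23]

theorem wits_cover : ∀ p ∈ primeList, ∀ q ∈ primeList, ∀ r ∈ primeList, p ≤ q → q ≤ r → ¬ (p = 2 ∧ q = 2) →
    ¬ ((p = 2 ∧ q = 3) ∨ (p = 2 ∧ q = 5 ∧ r = 5) ∨ (p = 2 ∧ q = 5 ∧ r = 7) ∨ (p = 3 ∧ q = 3 ∧ r ≤ 7)) →
    wits.any (fun W => Nat.beq W.p p && Nat.beq W.q q && Nat.beq W.r r) = true := by decide +kernel

theorem fixd_M23 : fixGroup D23.cert.fixd = Spor.M23 := by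
  rw [show D23.cert.fixd = CfsgLib.MathieuTwo.D23.fixd by decide +kernel, K23_eq]

theorem gens_closure : Subgroup.closure {permOf D23.cert.a, permOf D23.cert.b} = fixGroup D23.cert.fixd :=
  D23.cert.closure_eq D23.gen_ok (by rw [fixd_M23, card_M23]; rfl)

theorem order_of_ordOk {t : List ℕ} (hv : validTab t = true) {n : ℕ} (hn : n.Prime) (h : ordOk t n = true) :
    orderOf (permOf t) = n := by
  simp only [ordOk, Bool.and_eq_true, Bool.not_eq_true', eqTab_iff] at h
  haveI := Fact.mk hn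
  refine orderOf_eq_prime ?_ fun e => ?_
  · rw [← (powT_spec hv n).2, h.1, permOf_idT]
  · have := eqTab_iff.2 ((eq_idT_iff hv).2 e)
    rw [this] at h
    exact Bool.noConfusion h.2

theorem evalG_mem {G : Type*} [Group G] {A B : G} :
    ∀ w, evalG A B w ∈ Subgroup.closure ({A, B} : Set G)
  | [] => one_mem _
  | c :: w => by
    refine mul_mem (Subgroup.subset_closure ?_) (evalG_mem w)
    cases c <;> simp

theorem exists_triple {W : Wit} (hW : W ∈ wits) (hp : W.p.Prime) (hq : W.q.Prime) (hr : W.r.Prime) :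
    ∃ x y z : Spor.M23, orderOf x = W.p ∧ orderOf y = W.q ∧ orderOf z = W.r ∧ x * y * z = 1 ∧
      Subgroup.closure {x, y} = ⊤ := by
  have h := List.all_eq_true.1 wits_ok W hW
  simp only [Wit.ok, Bool.and_eq_true] at h
  obtain ⟨⟨⟨⟨⟨hg, hx⟩, hy⟩, hxy⟩, ha⟩, hb⟩ := h
  have hlt := D23.cert.lt_fixd D23.gen_ok
  obtain ⟨xv, xm⟩ := permOf_mem_fixGroup hlt hg List.mem_cons_self
  obtain ⟨yv, ym⟩ := permOf_mem_fixGroup hlt hg (List.mem_cons_of_mem _ List.mem_cons_self)
  obtain ⟨mv, me⟩ := mulTab_spec xv yv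
  rw [fixd_M23] at xm ym
  have ox := order_of_ordOk xv hp hx
  have oy := order_of_ordOk yv hq hy
  have oz := order_of_ordOk mv hr hxy
  rw [me] at oz
  refine ⟨⟨_, xm⟩, ⟨_, ym⟩, (⟨_, xm⟩ * ⟨_, ym⟩)⁻¹, ?_, ?_, ?_, mul_inv_cancel _, ?_⟩
  · rw [← Subgroup.orderOf_coe]; exact ox
  · rw [← Subgroup.orderOf_coe]; exact oy
  · rw [orderOf_inv, ← Subgroup.orderOf_coe]; exact oz
  · refine Subgroup.map_injective Spor.M23.subtype_injective ?_
    rw [MonoidHom.map_closure, ← MonoidHom.range_eq_map, Subgroup.range_subtype, Set.image_pair]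
    simp only [Subgroup.coe_subtype]
    refine le_antisymm ((Subgroup.closure_le _).2 (by rintro g (rfl | rfl) <;> assumption)) ?_
    rw [← fixd_M23, ← gens_closure, Subgroup.closure_le]
    rw [eqTab_iff] at ha hb
    rintro g (rfl | rfl)
    · rw [← ha, (evalW_spec xv yv _).2]; exact evalG_mem _
    · rw [← hb, (evalW_spec xv yv _).2]; exact evalG_mem _

/-- The 23 moved points. -/
abbrev Pts := {a : GolayPt // a ≠ none}

theorem card_pts : Fintype.card Pts = 23 := by decide +kernel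

theorem M23_apply_none (g : Spor.M23) : (g : Perm GolayPt) none = none := g.2.2

theorem pts_iff (g : Spor.M23) (a : GolayPt) : (g : Perm GolayPt) a ≠ none ↔ a ≠ none := by
  constructor
  · exact fun h e => h (e ▸ M23_apply_none g)
  · exact fun h e => h ((g : Perm GolayPt).injective (e.trans (M23_apply_none g).symm))

/-- The action on the 23 points. -/
def onPts : Spor.M23 →* Perm Pts where
  toFun g := (g : Perm GolayPt).subtypePerm (pts_iff g)
  map_one' := by ext; rfl
  map_mul' g h := by ext; rfl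

theorem onPts_apply (g : Spor.M23) (a : Pts) : (onPts g a : GolayPt) = (g : Perm GolayPt) a := rfl

theorem a_moves : ((List.range 23).all fun j => (List.range 23).any fun k =>
    Nat.beq ((powT D23.cert.a k).getD 0 0) j) = true := by decide +kernel

theorem onPts_transitive (a : Pts) : ∃ g : Spor.M23, onPts g ⟨some 0, nofun⟩ = a := by
  obtain ⟨hv, hm⟩ := (D23.cert.gen_spec D23.gen_ok).1
  rw [fixd_M23] at hm
  have hi : (idx a.1).val < 23 := by
    have h : ∀ p : GolayPt, p ≠ none → (idx p).val < 23 := by decide +kernel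
    exact h _ a.2
  obtain ⟨k, -, hk⟩ := List.any_eq_true.1 (List.all_eq_true.1 a_moves _ (List.mem_range.2 hi))
  rw [Nat.beq_eq] at hk
  refine ⟨⟨_, pow_mem hm k⟩, Subtype.ext (idx_injective (Fin.ext ?_))⟩
  rw [onPts_apply]
  show (idx ((permOf D23.cert.a ^ k) (some 0))).val = _
  rw [← (powT_spec hv k).2, idx_permOf (powT_spec hv k).1]
  exact hk

theorem card_fix (g : Spor.M23) :
    (Finset.univ.filter fun a : Pts => onPts g a = a).card + 1 = (Ord3.fixSet (g : Perm GolayPt)).card := by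
  have hmem : none ∈ Ord3.fixSet (g : Perm GolayPt) := by simp [Ord3.fixSet, M23_apply_none g]
  rw [← Finset.card_erase_add_one hmem, add_left_inj]
  refine Finset.card_bij (fun a _ => a.1) ?_ (fun a _ b _ h => Subtype.ext h) ?_
  · intro a ha
    simp only [Finset.mem_filter, Finset.mem_univ, true_and] at ha
    simp only [Finset.mem_erase, Ord3.fixSet, Finset.mem_filter, Finset.mem_univ, true_and]
    exact ⟨a.2, congrArg Subtype.val ha⟩
  · intro a ha
    simp only [Finset.mem_erase, Ord3.fixSet, Finset.mem_filter, Finset.mem_univ, true_and] at ha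
    exact ⟨⟨a, ha.1⟩, by simp [Subtype.ext_iff, onPts_apply, ha.2], rfl⟩

/-- A lower bound on the number of cycles of an element of prime order. -/
def minCyc : ℕ → ℕ
  | 2 => 15
  | 3 => 11
  | 5 => 7
  | 7 => 5
  | _ => 1

theorem le_cyc {g : Spor.M23} {p : ℕ} (hp : p.Prime) (ho : orderOf g = p) :
    minCyc p ≤ Nat.card (Cyc (onPts g)) := by
  classical
  haveI := Fact.mk hp
  have hpow : onPts g ^ p = 1 := by rw [← map_pow, ← ho, pow_orderOf_eq_one, map_one]
  have hoc : orderOf (g : Perm GolayPt) = p := by rw [Subgroup.orderOf_coe, ho]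
  have hle := le_card_cyc hp hpow
  rw [card_pts] at hle
  have hmod : (Finset.univ.filter fun a : Pts => onPts g a = a).card ≡ 23 [MOD p] := by
    have h := Perm.card_compl_support_modEq (σ := onPts g) (n := 1) (by rwa [pow_one])
    rw [card_pts] at h
    convert h using 2
    ext a
    simp
  have hfix := card_fix g
  unfold minCyc
  split
  · rcases Invol.fixed_cases g.2.1 hoc with ⟨k, -, b, -, h8, h0⟩
    cases b
    · exact absurd (M23_apply_none g) (h0 rfl none)
    · have : (Ord3.fixSet (g : Perm GolayPt)).card = 8 := card_of_mem_octads (h8 rfl)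
      omega
  · have : (Ord3.fixSet (g : Perm GolayPt)).card = 6 := by
      rcases Ord3.fix_card_cases g.2.1 hoc with h | h
      · exact h
      · exact absurd (Finset.card_pos.2 ⟨none, Finset.mem_filter.2 ⟨Finset.mem_univ _, M23_apply_none g⟩⟩ :
          0 < (Ord3.fixSet (g : Perm GolayPt)).card) (by omega)
    omega
  · unfold Nat.ModEq at hmod
    omega
  · unfold Nat.ModEq at hmod
    omega
  · haveI : Nonempty (Cyc (onPts g)) := ⟨Quotient.mk _ ⟨some 0, nofun⟩⟩
    exact Nat.card_pos (α := Cyc (onPts g))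

theorem no_triple {p q r : ℕ} (hp : p.Prime) (hq : q.Prime) (hr : r.Prime)
    (hbad : 25 < minCyc p + minCyc q + minCyc r) {x y z : Spor.M23} (hx : orderOf x = p) (hy : orderOf y = q)
    (hz : orderOf z = r) (hxyz : x * y * z = 1) : Subgroup.closure {x, y} ≠ ⊤ := by
  intro htop
  have hz' : z = (x * y)⁻¹ := eq_inv_of_mul_eq_one_right hxyz
  have h := genus_le (onPts x) (onPts y) (⟨some 0, nofun⟩ : Pts) fun a => by
    obtain ⟨g, hg⟩ := onPts_transitive a
    refine ⟨onPts g, ?_, hg⟩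
    have := Subgroup.mem_map_of_mem onPts (htop ▸ Subgroup.mem_top g : g ∈ Subgroup.closure {x, y})
    rwa [MonoidHom.map_closure, Set.image_pair] at this
  rw [card_pts, ← map_mul, ← map_inv, ← hz'] at h
  have := le_cyc hp hx
  have := le_cyc hq hy
  have := le_cyc hr hz
  omega

theorem mem_primeList {p : ℕ} (hp : p.Prime) (h : p ∣ 10200960) : p ∈ primeList := by
  have hm : p ∈ (10200960 : ℕ).primeFactorsList := (Nat.mem_primeFactorsList (by norm_num)).2 ⟨hp, h⟩
  have e : (10200960 : ℕ) = [2, 2, 2, 2, 2, 2, 2, 3, 3, 5, 7, 11, 23].prod := by norm_num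
  have hpe := Nat.primeFactorsList_unique e.symm (by intro z hz; fin_cases hz <;> norm_num)
  have := hpe.mem_iff.2 hm
  simp [primeList] at this ⊢
  tauto

theorem triples_iff {p q r : ℕ} (hp : p.Prime) (hq : q.Prime) (hr : r.Prime) (hpq : p ≤ q) (hqr : q ≤ r)
    (hp2 : ¬ (p = 2 ∧ q = 2)) (hdvd : p ∣ 10200960 ∧ q ∣ 10200960 ∧ r ∣ 10200960) :
    (∃ x y z : Spor.M23, orderOf x = p ∧ orderOf y = q ∧ orderOf z = r ∧ x * y * z = 1 ∧
        Subgroup.closure {x, y} = ⊤) ↔
      ¬ ((p = 2 ∧ q = 3) ∨ (p = 2 ∧ q = 5 ∧ r = 5) ∨ (p = 2 ∧ q = 5 ∧ r = 7) ∨ (p = 3 ∧ q = 3 ∧ r ≤ 7)) := by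
  have hpl := mem_primeList hp hdvd.1
  have hql := mem_primeList hq hdvd.2.1
  have hrl := mem_primeList hr hdvd.2.2
  constructor
  · rintro ⟨x, y, z, hx, hy, hz, hxyz, htop⟩ hbad
    refine no_triple hp hq hr ?_ hx hy hz hxyz htop
    have key : ∀ p ∈ primeList, ∀ q ∈ primeList, ∀ r ∈ primeList, q ≤ r →
        ((p = 2 ∧ q = 3) ∨ (p = 2 ∧ q = 5 ∧ r = 5) ∨ (p = 2 ∧ q = 5 ∧ r = 7) ∨ (p = 3 ∧ q = 3 ∧ r ≤ 7)) →
        25 < minCyc p + minCyc q + minCyc r := by decide +kernel
    exact key p hpl q hql r hrl hqr hbad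
  · intro hgood
    obtain ⟨W, hW, he⟩ := List.any_eq_true.1 (wits_cover p hpl q hql r hrl hpq hqr hp2 hgood)
    simp only [Bool.and_eq_true, Nat.beq_eq] at he
    obtain ⟨⟨rfl, rfl⟩, rfl⟩ := he
    exact exists_triple hW hp hq hr

end CfsgLib.MathieuTriples
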